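import Groth.Agent.Etcore.AbHomology
import Mathlib.Algebra.Homology.QuasiIso
import Mathlib.Algebra.Category.Grp.Abelian
import Mathlib.Tactic.Abel

/-!
# Quasi-isomorphisms of complexes of abelian groups, elementwise
-/

set_option autoImplicit false

universe w

open CategoryTheory CategoryTheory.Limits ComplexShape

namespace Groth.Agent.Htor.H253.AbQuasi

open Groth.Agent.Etcore.AbHomology

variable {K L : CochainComplex AddCommGrpCat.{w} ℤ} {f : K ⟶ L}

/-- Elementwise exactness of the mapping cone. -/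
def IsConeElt (f : K ⟶ L) : Prop :=
  ∀ (p q r s : ℤ) (_ : p + 1 = q) (_ : q + 1 = r) (_ : r + 1 = s) (u : K.X r) (v : L.X q)
    (_ : K.d r s u = 0) (_ : f.f r u = L.d q r v),
    ∃ (x : K.X q) (z : L.X p), K.d q r x = u ∧ f.f q x = v + L.d p q z

lemma homologyMap_π (f : K ⟶ L) (q : ℤ) (z : K.cycles q) :
    HomologicalComplex.homologyMap f q (K.homologyπ q z) =
      L.homologyπ q (HomologicalComplex.cyclesMap f q z) :=
  congr($(HomologicalComplex.homologyπ_naturality f q) z)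

lemma cyclesMap_i (f : K ⟶ L) (q : ℤ) (z : K.cycles q) :
    L.iCycles q (HomologicalComplex.cyclesMap f q z) = f.f q (K.iCycles q z) :=
  congr($(HomologicalComplex.cyclesMap_i f q) z)

lemma f_d (f : K ⟶ L) (q r : ℤ) (x : K.X q) : L.d q r (f.f q x) = f.f r (K.d q r x) :=
  congr($(f.comm q r) x)

lemma d_d (p q r : ℤ) (x : K.X p) : K.d q r (K.d p q x) = 0 :=
  congr($(K.d_comp_d p q r) x)

lemma isConeElt_of_quasiIso [QuasiIso f] : IsConeElt f := by
  intro p q r s hpq hqr hrs u v hu huv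
  have h1 : Function.Bijective (HomologicalComplex.homologyMap f r) :=
    ConcreteCategory.bijective_of_isIso (HomologicalComplex.homologyMap f r)
  have h2 : Function.Bijective (HomologicalComplex.homologyMap f q) :=
    ConcreteCategory.bijective_of_isIso (HomologicalComplex.homologyMap f q)
  obtain ⟨zu, rfl⟩ := exists_cycles K u s (by simp; lia) hu
  have h3 : K.homologyπ r zu = 0 := by
    apply h1.1
    rw [map_zero, homologyMap_π, homologyπ_eq_zero_iff L _ q (by simp; lia)]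
    exact ⟨v, by rw [cyclesMap_i, huv]⟩
  rw [homologyπ_eq_zero_iff K _ q (by simp; lia)] at h3
  obtain ⟨x, hx⟩ := h3
  have h4 : L.d q r (v - f.f q x) = 0 := by
    rw [map_sub, f_d, hx, huv, sub_self]
  obtain ⟨zv, hzv⟩ := exists_cycles L _ r (by simp; lia) h4
  obtain ⟨c, hc⟩ := h2.2 (L.homologyπ q zv)
  obtain ⟨zc, rfl⟩ := homologyπ_surj K c
  rw [homologyMap_π, ← sub_eq_zero, ← map_sub, homologyπ_eq_zero_iff L _ p (by simp; lia)] at hc
  obtain ⟨z, hz⟩ := hc
  rw [map_sub, cyclesMap_i, hzv] at hz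
  refine ⟨x + K.iCycles q zc, z, ?_, ?_⟩
  · rw [map_add, hx, d_iCycles, add_zero]
  · rw [hz, map_add]
    abel

lemma quasiIso_of_isConeElt (h : IsConeElt f) : QuasiIso f := by
  rw [quasiIso_iff]
  intro q
  rw [quasiIsoAt_iff_isIso_homologyMap, ConcreteCategory.isIso_iff_bijective]
  constructor
  · rw [injective_iff_map_eq_zero]
    intro c hc
    obtain ⟨z, rfl⟩ := homologyπ_surj K c
    rw [homologyMap_π, homologyπ_eq_zero_iff L _ (q - 1) (by simp)] at hc
    obtain ⟨y, hy⟩ := hc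
    rw [cyclesMap_i] at hy
    rw [homologyπ_eq_zero_iff K _ (q - 1) (by simp)]
    obtain ⟨x, -, hx, -⟩ := h (q - 1 - 1) (q - 1) q (q + 1) (by lia) (by lia) rfl (K.iCycles q z) y
      (d_iCycles K _ z) hy.symm
    exact ⟨x, hx⟩
  · intro c
    obtain ⟨z, rfl⟩ := homologyπ_surj L c
    obtain ⟨x, y, hx, hy⟩ := h (q - 1) q (q + 1) (q + 1 + 1) (by lia) rfl rfl 0 (L.iCycles q z)
      (map_zero _) (by rw [map_zero, d_iCycles])
    obtain ⟨zx, rfl⟩ := exists_cycles K x (q + 1) (by simp) hx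
    refine ⟨K.homologyπ q zx, ?_⟩
    rw [homologyMap_π, ← sub_eq_zero, ← map_sub, homologyπ_eq_zero_iff L _ (q - 1) (by simp)]
    refine ⟨y, ?_⟩
    rw [map_sub, cyclesMap_i, hy]
    abel

lemma isConeElt_iff_quasiIso : IsConeElt f ↔ QuasiIso f :=
  ⟨quasiIso_of_isConeElt, fun _ => isConeElt_of_quasiIso⟩

end Groth.Agent.Htor.H253.AbQuasi
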