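import Groth.Agent.Htor.H253.TotalQuasi
import Mathlib.Algebra.Homology.Additive
import Mathlib.Algebra.Homology.Single

/-!
# The total complex of a bicomplex concentrated in one row

* `rowIso L : L ≅ (row L).total (up ℤ)`, where `row L` is the bicomplex with `(row L).X i = (single 0).obj (L.X i)`.
* `nonempty_homology_iso`: if `α : row L ⟶ E` is a morphism of bicomplexes such that each
  `(single 0).obj (L.X i) ⟶ E.X i` is a quasi-isomorphism, then `H^n(L) ≅ H^n(Tot E)`.
-/

set_option autoImplicit false

open CategoryTheory CategoryTheory.Limits HomologicalComplex₂ ComplexShape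

namespace Groth.Agent.Htor.H253.TotalRow

open TotalPrj ConeEx TotalQuasi

variable {C : Type*} [Category* C] [Abelian C]

/-- The bicomplex with `L` in the row `j = 0`. -/
noncomputable abbrev row (L : CochainComplex C ℤ) : HomologicalComplex₂ C (up ℤ) (up ℤ) :=
  ((HomologicalComplex.single C (up ℤ) 0).mapHomologicalComplex (up ℤ)).obj L

lemma isZero_row (L : CochainComplex C ℤ) (i j : ℤ) (hj : j ≠ 0) : IsZero (((row L).X i).X j) :=
  HomologicalComplex.isZero_single_obj_X (up ℤ) 0 (L.X i) j hj

lemma isZero_row' (L : CochainComplex C ℤ) (i j : ℤ) (hi : IsZero (L.X i)) : IsZero (((row L).X i).X j) := by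
  by_cases hj : j = 0
  · subst hj
    exact hi.of_iso (HomologicalComplex.singleObjXSelf (up ℤ) 0 (L.X i))
  · exact isZero_row L i j hj

lemma bdd_row (L : CochainComplex C ℤ) : Bdd (row L) := fun n =>
  ⟨n, n, fun i j hij hi => isZero_row L i j (by lia)⟩

/-- The terms in the row `j = 0`. -/
noncomputable def rowX (L : CochainComplex C ℤ) (n : ℤ) : L.X n ≅ ((row L).X n).X 0 :=
  (HomologicalComplex.singleObjXSelf (up ℤ) 0 (L.X n)).symm

lemma rowX_d (L : CochainComplex C ℤ) (n n' : ℤ) :
    (rowX L n).hom ≫ ((row L).d n n').f 0 = L.d n n' ≫ (rowX L n').hom := by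
  have h2 : ((row L).d n n').f 0 = (rowX L n).inv ≫ L.d n n' ≫ (rowX L n').hom :=
    HomologicalComplex.single_map_f_self (up ℤ) 0 (L.d n n')
  rw [h2, Iso.hom_inv_id_assoc]

lemma row_d₂ (L : CochainComplex C ℤ) (n j j' : ℤ) : ((row L).X n).d j j' = 0 := rfl

variable (L : CochainComplex C ℤ) [(row L).HasTotal (up ℤ)]

/-- The inclusion of `L` in the total complex of `row L`, in degree `n`. -/
noncomputable def rowHom (n : ℤ) : L.X n ⟶ ((row L).total (up ℤ)).X n :=
  (rowX L n).hom ≫ (row L).ιTotal (up ℤ) n 0 n (by dsimp; lia)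

lemma rowHom_comm (n n' : ℤ) (h : n + 1 = n') :
    rowHom L n ≫ ((row L).total (up ℤ)).d n n' = L.d n n' ≫ rowHom L n' := by
  subst h
  rw [rowHom, Category.assoc, ι_d (row L) n 0 n (n + 1) (by lia) rfl, rowHom, row_d₂, zero_comp, smul_zero,
    add_zero, reassoc_of% (rowX_d L n (n + 1))]

/-- The isomorphism in degree `n`. -/
noncomputable def rowIsoX (n : ℤ) : L.X n ≅ ((row L).total (up ℤ)).X n where
  hom := rowHom L n
  inv := prj (row L) n 0 n ≫ (rowX L n).inv
  hom_inv_id := by
    rw [rowHom, Category.assoc, reassoc_of% (ι_prj (row L) n 0 n (by lia)), Iso.hom_inv_id]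
  inv_hom_id := by
    refine ext_prj (bdd_row L) fun i j hij => ?_
    by_cases hj : j = 0
    · subst hj
      obtain rfl : i = n := by lia
      rw [rowHom, Category.assoc, Category.assoc, Category.assoc, ι_prj (row L) i 0 i (by lia),
        Category.comp_id, Iso.inv_hom_id, Category.comp_id, Category.id_comp]
    · exact (isZero_row L i j hj).eq_of_tgt _ _

/-- The total complex of `row L` is `L`. -/
noncomputable def rowIso : L ≅ (row L).total (up ℤ) :=
  HomologicalComplex.Hom.isoOfComponents (rowIsoX L) (fun n n' h => rowHom_comm L n n' h)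

/-- A complex `L` and a bicomplex `E` with a morphism `row L ⟶ E` which is a quasi-isomorphism on all columns:
`H^n(L) ≅ H^n(Tot E)`. -/
theorem quasiIso_rowIso_total_map {E : HomologicalComplex₂ C (up ℤ) (up ℤ)} [E.HasTotal (up ℤ)]
    (α : row L ⟶ E) (hE : Bdd E) (h : ∀ i, QuasiIso (α.f i)) :
    QuasiIso ((rowIso L).hom ≫ total.map α (up ℤ)) := by
  have := quasiIso_total_map α (bdd_row L) hE h
  infer_instance

end Groth.Agent.Htor.H253.TotalRow
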