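import Groth.Agent.Htor.H253.CechRows
import Groth.Agent.Htor.H253.TotalRow
import Groth.Agent.CohtopA.CechOpens

/-!
# The augmentation of the Cech double complex of a complex of sheaves on a space

For a complex `K` of abelian sheaves on `X` and a family of opens `U` with union `V`, there is a morphism of
bicomplexes `row Γ(V, K) ⟶ CechTot.cech₂ U K`; it is a quasi-isomorphism on columns if the terms of `K` have
no higher Cech cohomology for the family (for example if they are injective).
-/

set_option autoImplicit false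

universe u

open CategoryTheory CategoryTheory.Limits Opposite AlgebraicTopology Simplicial TopologicalSpace

namespace Groth.Agent.Htor.H253.CechAug

open Groth.Agent.CohtopA.CechInj Groth.Agent.CohtopA.CechLES Groth.Agent.CohtopA.CechOpens AbQuasi TotalQuasi
  TotalPrj CechRows TotalRow

variable {X : TopCat.{u}} {ι : Type u} (U : ι → Opens X)

/-- `Γ(V, F) ⟶ C^0(U, F)`. -/
noncomputable def eta0 (F : CohTop.Ab X) : F.obj.obj (op (iSup U)) ⟶ ((cf U).obj F.obj).X 0 :=
  augMap (aug U) F.obj ≫ (θ U F.obj 0 0 rfl).inv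

lemma eta0_d (F : CohTop.Ab X) (k : ℤ) (hk : (ComplexShape.up ℤ).Rel 0 k) :
    eta0 U F ≫ ((cf U).obj F.obj).d 0 k = 0 := by
  have hk' : (0 : ℤ) + 1 = k := hk
  obtain rfl : k = 1 := by lia
  rw [← cancel_mono (θ U F.obj 1 1 rfl).hom, Category.assoc, θ_d U F.obj 0 0 1 rfl rfl, eta0, Category.assoc,
    Iso.inv_hom_id_assoc, zero_comp]
  refine ConcreteCategory.hom_ext _ _ fun x => ?_
  exact (augExact U F).mem x

/-- The augmentation of the extended Cech complex. -/
noncomputable def eta (F : CohTop.Ab X) :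
    (HomologicalComplex.single AddCommGrpCat.{u} (ComplexShape.up ℤ) 0).obj (F.obj.obj (op (iSup U))) ⟶
      (cf U).obj F.obj :=
  HomologicalComplex.mkHomFromSingle (eta0 U F) (eta0_d U F)

lemma eta_f_zero (F : CohTop.Ab X) :
    (eta U F).f 0 = (HomologicalComplex.singleObjXSelf (ComplexShape.up ℤ) 0 (F.obj.obj (op (iSup U)))).hom ≫
      eta0 U F :=
  HomologicalComplex.mkHomFromSingle_f _ _

lemma eta_naturality {F G : CohTop.Ab X} (f : F ⟶ G) :
    (HomologicalComplex.single AddCommGrpCat.{u} (ComplexShape.up ℤ) 0).map (f.hom.app (op (iSup U))) ≫ eta U G =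
      eta U F ≫ (cf U).map f.hom := by
  apply HomologicalComplex.from_single_hom_ext
  rw [HomologicalComplex.comp_f, HomologicalComplex.comp_f, eta_f_zero, eta_f_zero,
    HomologicalComplex.single_map_f_self, Category.assoc, Category.assoc, Category.assoc]
  congr 1
  rw [Iso.inv_hom_id_assoc, eta0, eta0, Category.assoc]
  rw [← cancel_mono (θ U G.obj 0 0 rfl).hom, Category.assoc, Category.assoc, Iso.inv_hom_id, Category.comp_id,
    Category.assoc, Category.assoc, θ_naturality, Iso.inv_hom_id_assoc]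
  refine ConcreteCategory.hom_ext _ _ fun x => ?_
  exact (augMap_naturality (aug U) f.hom x).symm

lemma eta_isConeElt (F : CohTop.Ab X)
    (hF : ∀ n : ℕ, IsZero (((cechComplexFunctor (A := AddCommGrpCat.{u}) U).obj F.obj).homology (n + 1))) :
    IsConeElt (eta U F) := by
  have hex : ∀ (n : ℕ) (x : ev F.obj (EE U _⦋n + 1⦌)), dEv F.obj (EE U) (n + 1) x = 0 →
      ∃ y, dEv F.obj (EE U) n y = x := by
    intro n
    have h1 := hF n
    rw [← HomologicalComplex.exactAt_iff_isZero_homology] at h1
    exact (cochain_exactAt_iff F.obj n).1 h1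
  intro p q r s hpq hqr hrs u v hu huv
  have hz : ∀ j : ℤ, j ≠ 0 → ∀ x y : ((HomologicalComplex.single AddCommGrpCat.{u} (ComplexShape.up ℤ) 0).obj
      (F.obj.obj (op (iSup U)))).X j, x = y :=
    fun j hj x y => eq_of_isZero (HomologicalComplex.isZero_single_obj_X _ _ _ _ hj) x y
  rcases lt_trichotomy q 0 with hq | hq | hq
  · -- `q < 0`
    have hv : v = 0 := eq_of_isZero (isZero_neg U F.obj q hq) _ _
    refine ⟨0, 0, ?_, ?_⟩
    · by_cases hr : r = 0
      · subst hr
        rw [map_zero]
        have h1 : (eta U F).f 0 u = 0 := by rw [huv, hv, map_zero]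
        have h2 : (θ U F.obj 0 0 rfl).hom ((eta U F).f 0 u) = augMap (aug U) F.obj
            ((HomologicalComplex.singleObjXSelf (ComplexShape.up ℤ) 0 (F.obj.obj (op (iSup U)))).hom u) := by
          have h3 : (eta U F).f 0 ≫ (θ U F.obj 0 0 rfl).hom =
              (HomologicalComplex.singleObjXSelf (ComplexShape.up ℤ) 0 (F.obj.obj (op (iSup U)))).hom ≫
                augMap (aug U) F.obj := by
            rw [eta_f_zero, eta0, Category.assoc, Category.assoc, Iso.inv_hom_id, Category.comp_id]
          exact congr($h3 u)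
        rw [h1, map_zero] at h2
        have h4 := (augExact U F).inj (h2.symm.trans (map_zero _).symm)
        have h5 := congr((HomologicalComplex.singleObjXSelf (ComplexShape.up ℤ) 0
          (F.obj.obj (op (iSup U)))).inv $h4)
        rw [map_zero] at h5
        refine h5.symm.trans ?_
        exact congr($((HomologicalComplex.singleObjXSelf (ComplexShape.up ℤ) 0
          (F.obj.obj (op (iSup U)))).hom_inv_id) u)
      · exact hz r hr _ _
    · exact eq_of_isZero (isZero_neg U F.obj q hq) _ _
  · subst hq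
    obtain rfl : r = 1 := by lia
    have hu0 : u = 0 := hz 1 (by lia) _ _
    have h1 : dEv F.obj (EE U) 0 ((θ U F.obj 0 0 rfl).hom v) = 0 := by
      have h2 := congr($(θ_d U F.obj 0 0 1 rfl rfl) v)
      refine h2.symm.trans ?_
      change (θ U F.obj 1 1 rfl).hom (((cf U).obj F.obj).d 0 1 v) = 0
      rw [← huv, hu0, map_zero, map_zero]
    obtain ⟨y, hy⟩ := (augExact U F).lift _ h1
    refine ⟨(HomologicalComplex.singleObjXSelf (ComplexShape.up ℤ) 0 (F.obj.obj (op (iSup U)))).inv y, 0,
      hz 1 (by lia) _ _, ?_⟩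
    rw [map_zero, add_zero]
    have h3 : (HomologicalComplex.singleObjXSelf (ComplexShape.up ℤ) 0 (F.obj.obj (op (iSup U)))).inv ≫
        (eta U F).f 0 = augMap (aug U) F.obj ≫ (θ U F.obj 0 0 rfl).inv := by
      rw [eta_f_zero, Iso.inv_hom_id_assoc, eta0]
    have h4 := congr($h3 y)
    refine h4.trans ?_
    change (θ U F.obj 0 0 rfl).inv (augMap (aug U) F.obj y) = v
    rw [hy]
    exact θ_inv_hom F.obj 0 0 rfl v
  · obtain ⟨n, hn⟩ : ∃ n : ℕ, (n : ℤ) = p := ⟨p.toNat, by lia⟩
    have hn' : ((n + 1 : ℕ) : ℤ) = q := by push_cast; lia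
    have hn'' : ((n + 1 + 1 : ℕ) : ℤ) = r := by push_cast; lia
    have hu0 : u = 0 := hz r (by lia) _ _
    have h1 : dEv F.obj (EE U) (n + 1) ((θ U F.obj (n + 1) q hn').hom v) = 0 := by
      have h2 := congr($(θ_d U F.obj (n + 1) q r hn' hn'') v)
      refine h2.symm.trans ?_
      change (θ U F.obj (n + 1 + 1) r hn'').hom (((cf U).obj F.obj).d q r v) = 0
      rw [← huv, hu0, map_zero, map_zero]
    obtain ⟨y, hy⟩ := hex n _ h1
    refine ⟨0, -(θ U F.obj n p hn).inv y, hz r (by lia) _ _, ?_⟩
    have h3 : (θ U F.obj n p hn).inv ≫ ((cf U).obj F.obj).d p q =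
        dEv F.obj (EE U) n ≫ (θ U F.obj (n + 1) q hn').inv := by
      rw [Iso.inv_comp_eq, ← Category.assoc, Iso.eq_comp_inv, θ_d]
    have h4 := congr($h3 y)
    have h5 : ((cf U).obj F.obj).d p q ((θ U F.obj n p hn).inv y) = v := by
      refine h4.trans ?_
      change (θ U F.obj (n + 1) q hn').inv (dEv F.obj (EE U) n y) = v
      rw [hy]
      exact θ_inv_hom F.obj (n + 1) q hn' v
    rw [map_zero, map_neg, h5, add_neg_cancel]

/-- The complex of sections over the union of the family. -/
noncomputable abbrev secU (K : CochainComplex (CohTop.Ab X) ℤ) : CochainComplex AddCommGrpCat.{u} ℤ :=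
  (CohCx.sectCx (Opens.grothendieckTopology X) (iSup U)).obj K

/-- The augmentation `Γ(V, K) ⟶ C^•(U, K)`, as a morphism of bicomplexes. -/
noncomputable def augRow (K : CochainComplex (CohTop.Ab X) ℤ) :
    row (secU U K) ⟶ CechTot.cech₂ U ((CechTot.presheafCx X).obj K) where
  f i := eta U (K.X i)
  comm' i j _ := (eta_naturality U (K.d i j)).symm

/-- If the terms of `K` have no higher Cech cohomology then `Γ(V, K) ⟶ Tot C^•(U, K)` is a quasi-isomorphism. -/
theorem quasiIso_aug (K : CochainComplex (CohTop.Ab X) ℤ) (a : ℤ) (ha : ∀ i, i < a → IsZero (K.X i))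
    (hK : ∀ (i : ℤ) (n : ℕ),
      IsZero (((cechComplexFunctor (A := AddCommGrpCat.{u}) U).obj (K.X i).obj).homology (n + 1))) :
    QuasiIso ((rowIso (secU U K)).hom ≫
      HomologicalComplex₂.total.map (augRow U K) (ComplexShape.up ℤ)) := by
  refine quasiIso_rowIso_total_map _ _ ?_ fun i => ?_
  · refine bdd_cech₂ _ a fun i hi => ?_
    exact (sheafToPresheaf _ _).map_isZero (ha i hi)
  · exact quasiIso_of_isConeElt (eta_isConeElt U (K.X i) (hK i))

end Groth.Agent.Htor.H253.CechAug
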