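import Groth.Agent.Htor.H253.HomCone
import Groth.Agent.CohtopA.FreeAb

/-!
# Sections of a quasi-isomorphism between bounded below complexes of acyclic sheaves
-/

set_option autoImplicit false

universe w v u

open CategoryTheory CategoryTheory.Limits CategoryTheory.Abelian Opposite

namespace Groth.Agent.Htor.H253.SectCone

open HomCone Groth.Agent.CohtopA.FreeAb

variable {C : Type u} [Category.{v} C] {J : GrothendieckTopology C}
  [HasSheafify J AddCommGrpCat.{v}] [HasExt.{w} (Sheaf J AddCommGrpCat.{v})]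

/-- Let `φ : K ⟶ L` be a quasi-isomorphism of bounded below complexes of abelian sheaves whose terms have no
higher cohomology over `V`.  Then `K(V) ⟶ L(V)` is a quasi-isomorphism (elementwise formulation). -/
theorem exists_of_quasiIso {K L : CochainComplex (Sheaf J AddCommGrpCat.{v}) ℤ} (φ : K ⟶ L) [QuasiIso φ] (a : ℤ)
    (hKa : ∀ i, i < a → IsZero (K.X i)) (hLa : ∀ i, i < a → IsZero (L.X i)) (V : C)
    (hK : ∀ i, ExtAcyc (freeAb J V) (K.X i)) (hL : ∀ i, ExtAcyc (freeAb J V) (L.X i))
    (p q r s : ℤ) (hpq : p + 1 = q) (hqr : q + 1 = r) (hrs : r + 1 = s)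
    (u : (K.X r).obj.obj (op V)) (v : (L.X q).obj.obj (op V))
    (hu : (K.d r s).hom.app (op V) u = 0)
    (huv : (φ.f r).hom.app (op V) u = (L.d q r).hom.app (op V) v) :
    ∃ (x : (K.X q).obj.obj (op V)) (z : (L.X p).obj.obj (op V)),
      (K.d q r).hom.app (op V) x = u ∧
        (φ.f q).hom.app (op V) x = v + (L.d p q).hom.app (op V) z := by
  obtain ⟨u, rfl⟩ := (homEv_bijective V (K.X r)).2 u
  obtain ⟨v, rfl⟩ := (homEv_bijective V (L.X q)).2 v
  have h1 : u ≫ K.d r s = 0 := by
    apply (homEv_bijective V (K.X s)).1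
    rw [homEv_comp, map_zero]
    exact hu
  have h2 : u ≫ φ.f r = v ≫ L.d q r := by
    apply (homEv_bijective V (L.X r)).1
    rw [homEv_comp, homEv_comp]
    exact huv
  obtain ⟨x, z, hx, hz⟩ := HomCone.exists_of_quasiIso φ a hKa hLa hK hL p q r s hpq hqr hrs u v h1 h2
  refine ⟨homEv V _ x, homEv V _ z, ?_, ?_⟩
  · rw [← homEv_comp, hx]
  · rw [← homEv_comp, ← homEv_comp, hz, map_add]

end Groth.Agent.Htor.H253.SectCone
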