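import Groth.Agent.Htor.H253.CechAug
import Groth.Agent.Htor.H253.SectCone
import Groth.Agent.CohtopB.KInjSect
import Mathlib.Algebra.Homology.Factorizations.CM5a
import Mathlib.Algebra.Homology.DerivedCategory.KInjective
import Mathlib.Algebra.Homology.HomotopyCategory.KInjective

/-!
# Cech hypercohomology of an acyclic cover computes hypercohomology
-/

set_option autoImplicit false

universe u

open CategoryTheory CategoryTheory.Limits Opposite AlgebraicTopology Simplicial TopologicalSpace

namespace Groth.Agent.Htor.H253.CechHyper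

open Groth.Agent.CohtopA.CechInj Groth.Agent.CohtopA.CechLES Groth.Agent.CohtopA.CechOpens
  Groth.Agent.CohtopA.FreeAb AbQuasi TotalQuasi TotalPrj CechRows TotalRow CechAug HomCone

variable {X : TopCat.{u}} {ι : Type u} (U : ι → Opens X)

/-- A bounded below complex has a bounded below injective resolution. -/
lemma exists_injective_resolution (K : CochainComplex (CohTop.Ab X) ℤ) (a : ℤ)
    (ha : ∀ i : ℤ, i < a → IsZero (K.X i)) :
    ∃ (I : CochainComplex (CohTop.Ab X) ℤ) (φ : K ⟶ I), QuasiIso φ ∧ (∀ i, Injective (I.X i)) ∧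
      I.IsKInjective ∧ ∀ i : ℤ, i < a → IsZero (I.X i) := by
  have hK : K.IsStrictlyGE a := by
    rw [CochainComplex.isStrictlyGE_iff]
    exact ha
  obtain ⟨I, φ, h1, h2, h3⟩ := CochainComplex.Plus.modelCategoryQuillen.exists_quasiIso_injective K a
  exact ⟨I, φ, h1, h2, CochainComplex.isKInjective_of_injective I a, fun i hi => I.isZero_of_isStrictlyGE a i hi⟩

/-- Hypercohomology of a K-injective complex is the cohomology of its complex of sections. -/
lemma nonempty_sect_equiv [HasDerivedCategory.{u} (CohTop.Ab X)] (I : CochainComplex (CohTop.Ab X) ℤ)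
    [I.IsKInjective] (V : Opens X) (n : ℤ) :
    Nonempty (((CohCx.sectCx (Opens.grothendieckTopology X) V).obj I).homology n ≃+
      CohCx.HDU (DerivedCategory.Q.obj I) n V) := by
  obtain ⟨e, -⟩ := Groth.Agent.Etcore.AbHomology.exists_equiv
    (K := (CohCx.sectCx (Opens.grothendieckTopology X) V).obj I) (j := n) (k := n + 1) (i := n - 1)
    (E := CohCx.HDU (DerivedCategory.Q.obj I) n V) (by simp) (by simp)
    (fun x hx => Groth.Agent.CohtopB.KInjSect.secCls I n V ⟨x, hx⟩)
    (fun x y hx hy hxy => by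
      rw [← map_add]
      rfl)
    (fun e => by
      obtain ⟨s, hs⟩ := Groth.Agent.CohtopB.KInjSect.secCls_surjective I n V e
      exact ⟨s.1, s.2, hs⟩)
    (fun x hx => Groth.Agent.CohtopB.KInjSect.secCls_eq_zero_iff I n ⟨x, hx⟩)
  exact ⟨e⟩

/-- A quasi-isomorphism induces isomorphisms on hypercohomology. -/
lemma nonempty_HDU_equiv [HasDerivedCategory.{u} (CohTop.Ab X)] {K I : CochainComplex (CohTop.Ab X) ℤ}
    (φ : K ⟶ I) [QuasiIso φ] (V : Opens X) (n : ℤ) :
    Nonempty (CohCx.HDU (DerivedCategory.Q.obj I) n V ≃+ CohCx.HDU (DerivedCategory.Q.obj K) n V) := by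
  let e : DerivedCategory.Q.obj I ≅ DerivedCategory.Q.obj K := (asIso (DerivedCategory.Q.map φ)).symm
  exact ⟨((preadditiveCoyoneda.obj (op ((DerivedCategory.singleFunctor (CohTop.Ab X) 0).obj
    (CohCx.freeSheaf (Opens.grothendieckTopology X) V)))).mapIso
      ((shiftFunctor (DerivedCategory (CohTop.Ab X)) n).mapIso e)).addCommGroupIsoToAddEquiv⟩

theorem main [HasDerivedCategory.{u} (CohTop.Ab X)] (K : CochainComplex (CohTop.Ab X) ℤ) (a : ℤ)
    (ha : ∀ i : ℤ, i < a → IsZero (K.X i))
    (h : ∀ (p : ℕ) (c : Fin (p + 1) → ι) (i : ℤ) (q : ℕ),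
      Subsingleton (CohTop.HU (K.X i) (q + 1) (iInf fun k => U (c k)))) (n : ℤ) :
    Nonempty (↑(CechTot.hyperH U ((CechTot.presheafCx X).obj K) n) ≃+
      CohCx.HDU (DerivedCategory.Q.obj K) n (iSup U)) := by
  obtain ⟨I, φ, hφ, hI, hI', haI⟩ := exists_injective_resolution K a ha
  have hac : ∀ (p : ℕ) (c : Fin (p + 1) → ι) (i : ℤ),
      ExtAcyc (freeAb (Opens.grothendieckTopology X) (UU U c)) (K.X i) := by
    intro p c i q x
    have h1 := h p c i q
    have h3 : Subsingleton (Abelian.Ext (freeAb (Opens.grothendieckTopology X) (UU U c)) (K.X i) (q + 1)) := by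
      rw [UU_eq]
      exact h1
    exact Subsingleton.elim _ _
  have e1 : QuasiIso (HomologicalComplex₂.total.map (cechMap (U := U) ((CechTot.presheafCx X).map φ))
      (ComplexShape.up ℤ)) := by
    refine quasiIso_tot _ a (fun i hi => (sheafToPresheaf _ _).map_isZero (ha i hi))
      (fun i hi => (sheafToPresheaf _ _).map_isZero (haI i hi)) fun m c => ?_
    exact SectCone.exists_of_quasiIso φ a ha haI (UU U c) (hac m c) (fun i => extAcyc_of_injective)
  have e2 := quasiIso_aug U I a haI (fun i m => isZero_cech_of_injective_sheaf (I.X i) U m)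
  have f1 : (CechTot.hyperH U ((CechTot.presheafCx X).obj K) n) ≅
      (CechTot.hyperH U ((CechTot.presheafCx X).obj I) n) :=
    asIso (HomologicalComplex.homologyMap (HomologicalComplex₂.total.map
      (cechMap (U := U) ((CechTot.presheafCx X).map φ)) (ComplexShape.up ℤ)) n)
  have f2 : (secU U I).homology n ≅ (CechTot.hyperH U ((CechTot.presheafCx X).obj I) n) :=
    asIso (HomologicalComplex.homologyMap ((rowIso (secU U I)).hom ≫
      HomologicalComplex₂.total.map (augRow U I) (ComplexShape.up ℤ)) n)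
  obtain ⟨f3⟩ := nonempty_sect_equiv I (iSup U) n
  obtain ⟨f4⟩ := nonempty_HDU_equiv φ (iSup U) n
  exact ⟨(f1 ≪≫ f2.symm).addCommGroupIsoToAddEquiv.trans (f3.trans f4)⟩

end Groth.Agent.Htor.H253.CechHyper
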