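import Mathlib.Algebra.Homology.Refinements
import Mathlib.Algebra.Homology.QuasiIso
import Mathlib.Algebra.Homology.HomologicalComplexAbelian

/-!
# Quasi-isomorphisms by diagram chases up to refinements

`coneEx_iff_quasiIso`: a morphism of cochain complexes `f : K ⟶ L` is a quasi-isomorphism iff for all `u : A ⟶ K.X r`,
`v : A ⟶ L.X q` (`q + 1 = r`) with `u d = 0`, `u f = v d`, there exist, up to refinement, `x` and `z` with
`u = x d` and `x f = v + z d`.
-/

set_option autoImplicit false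

open CategoryTheory CategoryTheory.Limits ComplexShape

namespace Groth.Agent.Htor.H253.ConeEx

variable {C : Type*} [Category* C] [Abelian C]

/-- Exactness of the mapping cone, up to refinements. -/
def IsConeEx {K L : CochainComplex C ℤ} (f : K ⟶ L) : Prop :=
  ∀ (p q r s : ℤ) (_ : p + 1 = q) (_ : q + 1 = r) (_ : r + 1 = s) ⦃A : C⦄ (u : A ⟶ K.X r) (v : A ⟶ L.X q)
    (_ : u ≫ K.d r s = 0) (_ : u ≫ f.f r = v ≫ L.d q r),
    ∃ (A' : C) (π : A' ⟶ A) (_ : Epi π) (x : A' ⟶ K.X q) (z : A' ⟶ L.X p),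
      π ≫ u = x ≫ K.d q r ∧ x ≫ f.f q = π ≫ v + z ≫ L.d p q

variable {K L : CochainComplex C ℤ} {f : K ⟶ L}

lemma coneEx_of_quasiIso [QuasiIso f] : IsConeEx f := by
  intro p q r s hpq hqr hrs A u v hu huv
  have h1 : Mono (HomologicalComplex.homologyMap f r) := inferInstance
  have h2 : Epi (HomologicalComplex.homologyMap f q) := inferInstance
  rw [HomologicalComplex.mono_homologyMap_iff_up_to_refinements f q r s (by simp; lia) (by simp; lia)] at h1
  rw [HomologicalComplex.epi_homologyMap_iff_up_to_refinements f p q r (by simp; lia) (by simp; lia)] at h2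
  obtain ⟨A₁, π₁, hπ₁, x, hx⟩ := h1 u hu v huv
  obtain ⟨A₂, π₂, hπ₂, x₂, hx₂, z, hz⟩ := h2 (π₁ ≫ v - x ≫ f.f q) (by
    rw [Preadditive.sub_comp, Category.assoc, ← huv, ← Category.assoc, hx, Category.assoc, Category.assoc,
      f.comm, sub_self])
  refine ⟨A₂, π₂ ≫ π₁, epi_comp _ _, π₂ ≫ x + x₂, -z, ?_, ?_⟩
  · rw [Category.assoc, hx, Preadditive.add_comp, hx₂, add_zero, Category.assoc]
  · rw [Preadditive.comp_sub, sub_eq_iff_eq_add] at hz
    rw [Category.assoc, hz, Preadditive.add_comp, Preadditive.neg_comp, Category.assoc]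
    abel

lemma quasiIso_of_coneEx (h : IsConeEx f) : QuasiIso f := by
  rw [quasiIso_iff]
  intro q
  rw [quasiIsoAt_iff_isIso_homologyMap]
  have h1 : Mono (HomologicalComplex.homologyMap f q) := by
    rw [HomologicalComplex.mono_homologyMap_iff_up_to_refinements f (q - 1) q (q + 1) (by simp) (by simp)]
    intro A x₂ hx₂ y₁ hy₁
    obtain ⟨A', π, hπ, x, z, hx, -⟩ := h (q - 1 - 1) (q - 1) q (q + 1) (by lia) (by lia) (by lia) x₂ y₁ hx₂ hy₁
    exact ⟨A', π, hπ, x, hx⟩
  have h2 : Epi (HomologicalComplex.homologyMap f q) := by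
    rw [HomologicalComplex.epi_homologyMap_iff_up_to_refinements f (q - 1) q (q + 1) (by simp) (by simp)]
    intro A y₂ hy₂
    obtain ⟨A', π, hπ, x, z, hx, hz⟩ := h (q - 1) q (q + 1) (q + 1 + 1) (by lia) (by lia) (by lia)
      (0 : A ⟶ _) y₂ (by simp) (by simpa using hy₂.symm)
    refine ⟨A', π, hπ, x, ?_, -z, ?_⟩
    · rw [← hx, comp_zero]
    · rw [hz, Preadditive.neg_comp]
      abel
  exact isIso_of_mono_of_epi _

lemma coneEx_iff_quasiIso : IsConeEx f ↔ QuasiIso f :=
  ⟨quasiIso_of_coneEx, fun _ => coneEx_of_quasiIso⟩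

end Groth.Agent.Htor.H253.ConeEx
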