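import Groth.Agent.Htor.H253.TotalPrj
import Groth.Agent.Htor.H253.ConeEx
import Mathlib.Algebra.Homology.TotalComplexSymmetry
import Mathlib.Tactic.Abel

/-!
# A morphism of bicomplexes which is a quasi-isomorphism on columns (or rows) is a quasi-isomorphism on totals

* `quasiIso_total_map`: `φ : D ⟶ E` morphism of `ℤ × ℤ`-graded bicomplexes in an abelian category with finitely
  many nonzero terms on each antidiagonal, such that each `φ.f i : D.X i ⟶ E.X i` is a quasi-isomorphism.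
  Then `total.map φ (up ℤ)` is a quasi-isomorphism.
-/

set_option autoImplicit false

open CategoryTheory CategoryTheory.Limits HomologicalComplex₂ ComplexShape

namespace Groth.Agent.Htor.H253.TotalQuasi

open TotalPrj ConeEx

variable {C : Type*} [Category* C] [Abelian C] {D E : HomologicalComplex₂ C (up ℤ) (up ℤ)}

/-- The relations in a chase in a morphism of bicomplexes, for the first index `i`. -/
structure Rel (φ : D ⟶ E) (n : ℤ) {A : C} (u : ∀ i j : ℤ, A ⟶ (D.X i).X j) (v : ∀ i j : ℤ, A ⟶ (E.X i).X j)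
    (x : ∀ i j : ℤ, A ⟶ (D.X i).X j) (z : ∀ i j : ℤ, A ⟶ (E.X i).X j) (i : ℤ) : Prop where
  r₁ : ∀ i' j' j : ℤ, i' + 1 = i → j' + 1 = j → i + j = n + 1 →
    x i' j ≫ (D.d i' i).f j + i.negOnePow • (x i j' ≫ (D.X i).d j' j) = u i j
  r₂ : ∀ i' j' j : ℤ, i' + 1 = i → j' + 1 = j → i + j = n →
    x i j ≫ (φ.f i).f j = v i j + (z i' j ≫ (E.d i' i).f j + i.negOnePow • (z i j' ≫ (E.X i).d j' j))

lemma chase_step (φ : D ⟶ E) (h : ∀ i, IsConeEx (φ.f i)) (n : ℤ) {A : C}
    (u : ∀ i j : ℤ, A ⟶ (D.X i).X j) (v : ∀ i j : ℤ, A ⟶ (E.X i).X j)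
    (hu : ∀ i' i j' j : ℤ, i' + 1 = i → j' + 1 = j → i + j = n + 1 + 1 →
      u i' j ≫ (D.d i' i).f j + i.negOnePow • (u i j' ≫ (D.X i).d j' j) = 0)
    (huv : ∀ i' i j' j : ℤ, i' + 1 = i → j' + 1 = j → i + j = n + 1 →
      u i j ≫ (φ.f i).f j = v i' j ≫ (E.d i' i).f j + i.negOnePow • (v i j' ≫ (E.X i).d j' j))
    (x : ∀ i j : ℤ, A ⟶ (D.X i).X j) (z : ∀ i j : ℤ, A ⟶ (E.X i).X j) (p' p q₀ q₁ q₂ : ℤ) (hp : p' + 1 = p)
    (hq₀ : q₀ + 1 = q₁) (hq₁ : q₁ + 1 = q₂) (hn : p + q₁ = n)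
    (hR : Rel φ n u v x z p') :
    ∃ (A' : C) (π : A' ⟶ A) (_ : Epi π) (x' : A' ⟶ (D.X p).X q₁) (z' : A' ⟶ (E.X p).X q₀),
      (π ≫ x p' q₂) ≫ (D.d p' p).f q₂ + p.negOnePow • (x' ≫ (D.X p).d q₁ q₂) = π ≫ u p q₂ ∧
      x' ≫ (φ.f p).f q₁ = π ≫ v p q₁ + ((π ≫ z p' q₁) ≫ (E.d p' p).f q₁ +
        p.negOnePow • (z' ≫ (E.X p).d q₀ q₁)) := by
  have e1 := hR.r₁ (p' - 1) q₂ (q₂ + 1) (by lia) rfl (by lia)
  have e2 := hR.r₂ (p' - 1) q₁ q₂ (by lia) (by lia) (by lia)
  have e3 := hu p' p q₂ (q₂ + 1) hp rfl (by lia)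
  have e4 := huv p' p q₁ q₂ hp hq₁ (by lia)
  have hs : p'.negOnePow = - p.negOnePow := by
    subst hp
    rw [Int.negOnePow_succ, neg_neg]
  -- kill the double differentials
  have e1' := e1 =≫ (D.d p' p).f (q₂ + 1)
  have e2' := e2 =≫ (E.d p' p).f q₂
  simp only [Preadditive.add_comp, Category.assoc, Linear.units_smul_comp, d_f_comp_d_f, comp_zero, zero_add,
    hs] at e1' e2'
  have c1 : x p' q₂ ≫ (D.X p').d q₂ (q₂ + 1) ≫ (D.d p' p).f (q₂ + 1) =
      x p' q₂ ≫ (D.d p' p).f q₂ ≫ (D.X p).d q₂ (q₂ + 1) := by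
    rw [HomologicalComplex.Hom.comm]
  have c2 : x p' q₂ ≫ (φ.f p').f q₂ ≫ (E.d p' p).f q₂ = x p' q₂ ≫ (D.d p' p).f q₂ ≫ (φ.f p).f q₂ := by
    rw [← HomologicalComplex.comp_f, ← HomologicalComplex.comp_f, φ.comm]
  have c3 : z p' q₁ ≫ (E.X p').d q₁ q₂ ≫ (E.d p' p).f q₂ =
      z p' q₁ ≫ (E.d p' p).f q₁ ≫ (E.X p).d q₁ q₂ := by
    rw [HomologicalComplex.Hom.comm]
  rw [c1] at e1'
  rw [c2, c3] at e2'
  obtain ⟨A', π, hπ, x', z', h1, h2⟩ := h p q₀ q₁ q₂ (q₂ + 1) hq₀ hq₁ rfl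
    (p.negOnePow • (u p q₂ - x p' q₂ ≫ (D.d p' p).f q₂)) (v p q₁ + z p' q₁ ≫ (E.d p' p).f q₁) (by
      rw [Linear.units_smul_comp, Preadditive.sub_comp, Category.assoc]
      rcases Int.units_eq_one_or p.negOnePow with hε | hε <;> rw [hε] at e1' e3 ⊢
      · rw [Units.neg_smul, one_smul] at e1'
        rw [one_smul] at e3 ⊢
        rw [← e1'] at e3
        rw [← e3]
        abel
      · rw [neg_neg, one_smul] at e1'
        rw [Units.neg_smul, one_smul] at e3 ⊢
        rw [← e1'] at e3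
        rw [← e3]
        abel) (by
      rw [Linear.units_smul_comp, Preadditive.sub_comp, Category.assoc, e4, Preadditive.add_comp, Category.assoc,
        e2']
      rcases Int.units_eq_one_or p.negOnePow with hε | hε <;> rw [hε]
      · simp only [Units.neg_smul, one_smul]
        abel
      · simp only [Units.neg_smul, one_smul, neg_neg]
        abel)
  refine ⟨A', π, hπ, x', p.negOnePow • z', ?_, ?_⟩
  · rw [← h1, Linear.comp_units_smul, smul_smul, Int.units_mul_self, one_smul, Preadditive.comp_sub]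
    simp
  · rw [h2, Linear.units_smul_comp, smul_smul, Int.units_mul_self, one_smul, Preadditive.comp_add]
    simp only [Category.assoc]
    abel

lemma Rel.precomp {φ : D ⟶ E} {n : ℤ} {A : C} {u : ∀ i j : ℤ, A ⟶ (D.X i).X j} {v : ∀ i j : ℤ, A ⟶ (E.X i).X j}
    {x : ∀ i j : ℤ, A ⟶ (D.X i).X j} {z : ∀ i j : ℤ, A ⟶ (E.X i).X j} {i : ℤ} (hR : Rel φ n u v x z i)
    {A' : C} (π : A' ⟶ A) :
    Rel φ n (fun i j => π ≫ u i j) (fun i j => π ≫ v i j) (fun i j => π ≫ x i j) (fun i j => π ≫ z i j) i where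
  r₁ i' j' j hi hj hij := by
    have := π ≫= hR.r₁ i' j' j hi hj hij
    simpa only [Preadditive.comp_add, Linear.comp_units_smul, Category.assoc] using this
  r₂ i' j' j hi hj hij := by
    have := π ≫= hR.r₂ i' j' j hi hj hij
    simpa only [Preadditive.comp_add, Linear.comp_units_smul, Category.assoc] using this

lemma Rel.congr {φ : D ⟶ E} {n : ℤ} {A : C} {u : ∀ i j : ℤ, A ⟶ (D.X i).X j} {v : ∀ i j : ℤ, A ⟶ (E.X i).X j}
    {x x' : ∀ i j : ℤ, A ⟶ (D.X i).X j} {z z' : ∀ i j : ℤ, A ⟶ (E.X i).X j} {i : ℤ} (hR : Rel φ n u v x z i)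
    (hx : ∀ i' j, i' ≤ i → x' i' j = x i' j) (hz : ∀ i' j, i' ≤ i → z' i' j = z i' j) :
    Rel φ n u v x' z' i where
  r₁ i' j' j hi hj hij := by
    rw [hx i' j (by lia), hx i j' le_rfl]
    exact hR.r₁ i' j' j hi hj hij
  r₂ i' j' j hi hj hij := by
    rw [hx i j le_rfl, hz i' j (by lia), hz i j' le_rfl]
    exact hR.r₂ i' j' j hi hj hij

lemma chase (φ : D ⟶ E) (h : ∀ i, IsConeEx (φ.f i)) (n lo : ℤ)
    (hD : ∀ i j : ℤ, i < lo → i + j = n + 1 → IsZero ((D.X i).X j))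
    (hE : ∀ i j : ℤ, i < lo → i + j = n → IsZero ((E.X i).X j)) {A : C}
    (u : ∀ i j : ℤ, A ⟶ (D.X i).X j) (v : ∀ i j : ℤ, A ⟶ (E.X i).X j)
    (hu : ∀ i' i j' j : ℤ, i' + 1 = i → j' + 1 = j → i + j = n + 1 + 1 →
      u i' j ≫ (D.d i' i).f j + i.negOnePow • (u i j' ≫ (D.X i).d j' j) = 0)
    (huv : ∀ i' i j' j : ℤ, i' + 1 = i → j' + 1 = j → i + j = n + 1 →
      u i j ≫ (φ.f i).f j = v i' j ≫ (E.d i' i).f j + i.negOnePow • (v i j' ≫ (E.X i).d j' j)) (m : ℕ) :
    ∃ (A' : C) (π : A' ⟶ A) (_ : Epi π) (x : ∀ i j : ℤ, A' ⟶ (D.X i).X j) (z : ∀ i j : ℤ, A' ⟶ (E.X i).X j),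
      ∀ i, i < lo + m → Rel φ n (fun i j => π ≫ u i j) (fun i j => π ≫ v i j) x z i := by
  induction m with
  | zero =>
    refine ⟨A, 𝟙 _, inferInstance, fun _ _ => 0, fun _ _ => 0, fun i hi => ⟨?_, ?_⟩⟩
    · intro i' j' j hi' hj hij
      exact (hD i j (by simpa using hi) hij).eq_of_tgt _ _
    · intro i' j' j hi' hj hij
      exact (hE i j (by simpa using hi) hij).eq_of_tgt _ _
  | succ m ih =>
    obtain ⟨A₁, π₁, hπ₁, x, z, hR⟩ := ih
    obtain ⟨A₂, π₂, hπ₂, x', z', h1, h2⟩ := chase_step φ h n (fun i j => π₁ ≫ u i j) (fun i j => π₁ ≫ v i j)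
      (by
        intro i' i j' j hi hj hij
        have := π₁ ≫= hu i' i j' j hi hj hij
        simpa only [Preadditive.comp_add, Linear.comp_units_smul, Category.assoc, comp_zero] using this)
      (by
        intro i' i j' j hi hj hij
        have := π₁ ≫= huv i' i j' j hi hj hij
        simpa only [Preadditive.comp_add, Linear.comp_units_smul, Category.assoc] using this)
      x z (lo + m - 1) (lo + m) (n - (lo + m) - 1) (n - (lo + m)) (n - (lo + m) + 1) (by lia) (by lia) (by lia)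
      (by lia) (hR _ (by lia))
    refine ⟨A₂, π₂ ≫ π₁, epi_comp _ _,
      Function.update (fun i j => π₂ ≫ x i j) (lo + m)
        (Function.update (fun j => π₂ ≫ x (lo + m) j) (n - (lo + m)) x'),
      Function.update (fun i j => π₂ ≫ z i j) (lo + m)
        (Function.update (fun j => π₂ ≫ z (lo + m) j) (n - (lo + m) - 1) z'), ?_⟩
    intro i hi
    by_cases hi' : i < lo + m
    · have := (hR i hi').precomp π₂
      simp only [Category.assoc]
      refine this.congr ?_ ?_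
      · intro i' j hi''
        rw [Function.update_of_ne (by lia)]
      · intro i' j hi''
        rw [Function.update_of_ne (by lia)]
    · obtain rfl : i = lo + m := by
        push_cast at hi
        lia
      refine ⟨?_, ?_⟩
      · intro i' j' j hi' hj hij
        obtain rfl : i' = lo + m - 1 := by lia
        obtain rfl : j' = n - (lo + m) := by lia
        obtain rfl : j = n - (lo + m) + 1 := by lia
        rw [Function.update_of_ne (by lia), Function.update_self, Function.update_self, h1, Category.assoc]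
      · intro i' j' j hi' hj hij
        obtain rfl : i' = lo + m - 1 := by lia
        obtain rfl : j = n - (lo + m) := by lia
        obtain rfl : j' = n - (lo + m) - 1 := by lia
        rw [Function.update_self, Function.update_self, Function.update_of_ne (by lia), Function.update_self,
          Function.update_self, h2]
        simp only [Category.assoc]

theorem coneEx_total [D.HasTotal (up ℤ)] [E.HasTotal (up ℤ)] (φ : D ⟶ E) (hD : Bdd D) (hE : Bdd E)
    (h : ∀ i, IsConeEx (φ.f i)) : IsConeEx (total.map φ (up ℤ)) := by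
  intro p n r s hpq hqr hrs A u v hu huv
  obtain rfl : r = n + 1 := by lia
  obtain rfl : s = n + 1 + 1 := by lia
  obtain ⟨lo₁, hi₁, hD₁⟩ := hD (n + 1)
  obtain ⟨lo₂, hi₂, hE₂⟩ := hE n
  obtain ⟨lo, hlo⟩ : ∃ lo : ℤ, lo = min lo₁ lo₂ := ⟨_, rfl⟩
  obtain ⟨m, hm⟩ : ∃ m : ℕ, m = (max hi₁ hi₂ + 1 - lo).toNat := ⟨_, rfl⟩
  obtain ⟨A', π, hπ, x, z, hR⟩ := chase φ h n lo (fun i j hi hij => hD₁ i j hij (by lia))
    (fun i j hi hij => hE₂ i j hij (by lia)) (fun i j => u ≫ prj D i j (n + 1)) (fun i j => v ≫ prj E i j n)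
    (by
      intro i' i j' j hi hj hij
      have := hu =≫ prj D i j (n + 1 + 1)
      rw [Category.assoc, d_prj D i' i j' j (n + 1) (n + 1 + 1) hi hj rfl hij, zero_comp] at this
      simpa only [Preadditive.comp_add, Linear.comp_units_smul, Category.assoc] using this)
    (by
      intro i' i j' j hi hj hij
      have := huv =≫ prj E i j (n + 1)
      rw [Category.assoc, map_prj, Category.assoc, d_prj E i' i j' j n (n + 1) hi hj rfl hij] at this
      simpa only [Preadditive.comp_add, Linear.comp_units_smul, Category.assoc] using this) m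
  obtain ⟨x', hx'⟩ := exists_prj hD n x
  obtain ⟨z', hz'⟩ := exists_prj hE p z
  refine ⟨A', π, hπ, x', z', ?_, ?_⟩
  · refine ext_prj hD fun i j hij => ?_
    rw [Category.assoc, Category.assoc, d_prj D (i - 1) i (j - 1) j n (n + 1) (by lia) (by lia) rfl hij,
      Preadditive.comp_add, Linear.comp_units_smul, reassoc_of% (hx' (i - 1) j (by lia)),
      reassoc_of% (hx' i (j - 1) (by lia))]
    by_cases hi : i < lo + m
    · exact ((hR i hi).r₁ (i - 1) (j - 1) j (by lia) (by lia) hij).symm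
    · exact (hD₁ i j hij (Or.inr (by lia))).eq_of_tgt _ _
  · refine ext_prj hE fun i j hij => ?_
    rw [Category.assoc, map_prj, Preadditive.add_comp, Category.assoc, Category.assoc,
      d_prj E (i - 1) i (j - 1) j p n (by lia) (by lia) hpq hij, Preadditive.comp_add,
      Linear.comp_units_smul, reassoc_of% (hx' i j hij),
      reassoc_of% (hz' (i - 1) j (by lia)), reassoc_of% (hz' i (j - 1) (by lia))]
    by_cases hi : i < lo + m
    · have := ((hR i hi).r₂ (i - 1) (j - 1) j (by lia) (by lia) hij)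
      simpa only [Category.assoc] using this
    · exact (hE₂ i j hij (Or.inr (by lia))).eq_of_tgt _ _

/-- A morphism of bicomplexes `φ` with finitely many nonzero terms on each antidiagonal such that all the
morphisms `φ.f i : D.X i ⟶ E.X i` are quasi-isomorphisms induces a quasi-isomorphism on total complexes. -/
theorem quasiIso_total_map [D.HasTotal (up ℤ)] [E.HasTotal (up ℤ)] (φ : D ⟶ E) (hD : Bdd D) (hE : Bdd E)
    (h : ∀ i, QuasiIso (φ.f i)) : QuasiIso (total.map φ (up ℤ)) :=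
  quasiIso_of_coneEx (coneEx_total φ hD hE fun i => (coneEx_iff_quasiIso.2 (h i)))

lemma bdd_flip {D : HomologicalComplex₂ C (up ℤ) (up ℤ)} (hD : Bdd D) : Bdd D.flip := by
  intro n
  obtain ⟨lo, hi, h⟩ := hD n
  refine ⟨n - hi, n - lo, fun i j hij hi' => ?_⟩
  exact h j i (by lia) (by lia)

/-- The morphism on flipped bicomplexes. -/
def flipMap (φ : D ⟶ E) : D.flip ⟶ E.flip := (flipFunctor C (up ℤ) (up ℤ)).map φ

lemma flipMap_f_f (φ : D ⟶ E) (j i : ℤ) : ((flipMap φ).f j).f i = (φ.f i).f j := rfl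

lemma map_smul_ι [D.HasTotal (up ℤ)] [E.HasTotal (up ℤ)] (φ : D ⟶ E) (i j n : ℤ)
    (h : π (up ℤ) (up ℤ) (up ℤ) (i, j) = n) (ε : ℤˣ) :
    (φ.f i).f j ≫ (ε • E.ιTotal (up ℤ) i j n h) =
      (ε • D.ιTotal (up ℤ) i j n h) ≫ (total.map φ (up ℤ)).f n := by
  rw [Linear.comp_units_smul, Linear.units_smul_comp, ιTotal_map]

lemma totalFlipIso_hom_naturality [D.HasTotal (up ℤ)] [E.HasTotal (up ℤ)] (φ : D ⟶ E) :
    total.map (flipMap φ) (up ℤ) ≫ (E.totalFlipIso (up ℤ)).hom =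
      (D.totalFlipIso (up ℤ)).hom ≫ total.map φ (up ℤ) := by
  ext n : 1
  apply total.hom_ext
  intro i j hij
  rw [HomologicalComplex.comp_f, HomologicalComplex.comp_f, ιTotal_map_assoc, ιTotal_totalFlipIso_f_hom,
    ιTotal_totalFlipIso_f_hom_assoc]
  exact map_smul_ι φ j i n _ _

/-- A morphism of bicomplexes `φ` with finitely many nonzero terms on each antidiagonal such that for all `j` the
morphism `D^{•,j} ⟶ E^{•,j}` is a quasi-isomorphism induces a quasi-isomorphism on total complexes. -/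
theorem quasiIso_total_map_of_flip [D.HasTotal (up ℤ)] [E.HasTotal (up ℤ)] (φ : D ⟶ E) (hD : Bdd D) (hE : Bdd E)
    (h : ∀ j, QuasiIso ((flipMap φ).f j)) : QuasiIso (total.map φ (up ℤ)) := by
  have h1 : QuasiIso (total.map (flipMap φ) (up ℤ)) := quasiIso_total_map _ (bdd_flip hD) (bdd_flip hE) h
  have h2 := totalFlipIso_hom_naturality φ
  have h3 : QuasiIso ((D.totalFlipIso (up ℤ)).hom ≫ total.map φ (up ℤ)) := by
    rw [← h2]
    infer_instance
  exact (quasiIso_iff_comp_left _ _).1 h3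

end Groth.Agent.Htor.H253.TotalQuasi
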