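import Groth.Prelude.Def_CechTot
import Groth.Agent.Htor.H253.TotalQuasi
import Groth.Agent.Htor.H253.AbQuasi
import Groth.Agent.CohtopA.CechLES

/-!
# Rows of the Cech double complex

Let `φ : K ⟶ L` be a morphism of complexes of presheaves of abelian groups which is a quasi-isomorphism on all
finite products of the family `U`.  Then `CechTot.cech₂ U K ⟶ CechTot.cech₂ U L` is a quasi-isomorphism for each
Cech degree.
-/

set_option autoImplicit false

universe u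

open CategoryTheory CategoryTheory.Limits Opposite AlgebraicTopology Simplicial

namespace Groth.Agent.Htor.H253.CechRows

open Groth.Agent.CohtopA.CechInj Groth.Agent.CohtopA.CechLES AbQuasi TotalQuasi TotalPrj

variable {C : Type u} [SmallCategory C] [HasFiniteProducts C] {ι : Type u} (U : ι → C)

/-- The Cech simplicial object. -/
noncomputable abbrev EE : SimplicialObject (FormalCoproduct.{u} C) := (FormalCoproduct.mk _ U).cech

/-- The extended Cech complex functor. -/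
noncomputable abbrev cf : (Cᵒᵖ ⥤ AddCommGrpCat.{u}) ⥤ CochainComplex AddCommGrpCat.{u} ℤ :=
  cechComplexFunctor (A := AddCommGrpCat.{u}) U ⋙ ComplexShape.embeddingUpNat.extendFunctor AddCommGrpCat.{u}

/-- The terms of the extended Cech complex. -/
noncomputable def θ (P : Cᵒᵖ ⥤ AddCommGrpCat.{u}) (n : ℕ) (j : ℤ) (h : (n : ℤ) = j) :
    ((cf U).obj P).X j ≅ ev P (EE U _⦋n⦌) :=
  ((cechComplexFunctor (A := AddCommGrpCat.{u}) U).obj P).extendXIso ComplexShape.embeddingUpNat h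

lemma θ_naturality {P Q : Cᵒᵖ ⥤ AddCommGrpCat.{u}} (f : P ⟶ Q) (n : ℕ) (j : ℤ) (h : (n : ℤ) = j) :
    ((cf U).map f).f j ≫ (θ U Q n j h).hom = (θ U P n j h).hom ≫ evHom f (EE U _⦋n⦌) := by
  have h1 : ((cf U).map f).f j = (θ U P n j h).hom ≫ evHom f (EE U _⦋n⦌) ≫ (θ U Q n j h).inv :=
    HomologicalComplex.extendMap_f ((cechComplexFunctor (A := AddCommGrpCat.{u}) U).map f)
      ComplexShape.embeddingUpNat h
  rw [h1]
  simp

lemma θ_d (P : Cᵒᵖ ⥤ AddCommGrpCat.{u}) (n : ℕ) (j j' : ℤ) (h : (n : ℤ) = j) (h' : ((n + 1 : ℕ) : ℤ) = j') :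
    ((cf U).obj P).d j j' ≫ (θ U P (n + 1) j' h').hom = (θ U P n j h).hom ≫ dEv P (EE U) n := by
  have h2 : ((cechComplexFunctor (A := AddCommGrpCat.{u}) U).obj P).d n (n + 1) = dEv P (EE U) n :=
    cochain_d P n
  have h1 : ((cf U).obj P).d j j' = (θ U P n j h).hom ≫ dEv P (EE U) n ≫ (θ U P (n + 1) j' h').inv := by
    rw [← h2]
    exact HomologicalComplex.extend_d_eq _ ComplexShape.embeddingUpNat h h'
  rw [h1, Category.assoc, Category.assoc, Iso.inv_hom_id, Category.comp_id]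

lemma isZero_neg (P : Cᵒᵖ ⥤ AddCommGrpCat.{u}) (j : ℤ) (hj : j < 0) : IsZero (((cf U).obj P).X j) :=
  HomologicalComplex.isZero_extend_X _ ComplexShape.embeddingUpNat j (fun i => by
    change (i : ℤ) ≠ j
    lia)

lemma isZero_of_isZero (P : Cᵒᵖ ⥤ AddCommGrpCat.{u}) (hP : IsZero P) (j : ℤ) : IsZero (((cf U).obj P).X j) := by
  have h1 : IsZero ((cf U).obj P) := (cf U).map_isZero hP
  exact (HomologicalComplex.eval _ _ j).map_isZero h1

variable {U}

lemma bdd_cech₂ (K : CochainComplex (Cᵒᵖ ⥤ AddCommGrpCat.{u}) ℤ) (a : ℤ)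
    (ha : ∀ i, i < a → IsZero (K.X i)) : Bdd (CechTot.cech₂ U K) := by
  intro n
  refine ⟨a, n, fun i j hij hi => ?_⟩
  rcases hi with hi | hi
  · exact isZero_of_isZero U (K.X i) (ha i hi) j
  · exact isZero_neg U (K.X i) j (by lia)

/-- The morphism of Cech double complexes. -/
noncomputable abbrev cechMap {K L : CochainComplex (Cᵒᵖ ⥤ AddCommGrpCat.{u}) ℤ} (φ : K ⟶ L) :
    CechTot.cech₂ U K ⟶ CechTot.cech₂ U L :=
  ((cf U).mapHomologicalComplex (ComplexShape.up ℤ)).map φ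

/-- Elementwise quasi-isomorphism on the value at an object. -/
def ValQuasi {K L : CochainComplex (Cᵒᵖ ⥤ AddCommGrpCat.{u}) ℤ} (φ : K ⟶ L) (V : C) : Prop :=
  ∀ (p q r s : ℤ) (_ : p + 1 = q) (_ : q + 1 = r) (_ : r + 1 = s)
    (u : (K.X r).obj (op V)) (v : (L.X q).obj (op V))
    (_ : (K.d r s).app (op V) u = 0)
    (_ : (φ.f r).app (op V) u = (L.d q r).app (op V) v),
    ∃ (x : (K.X q).obj (op V)) (z : (L.X p).obj (op V)),
      (K.d q r).app (op V) x = u ∧ (φ.f q).app (op V) x = v + (L.d p q).app (op V) z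

omit [HasFiniteProducts C] in
lemma ev_cone {K L : CochainComplex (Cᵒᵖ ⥤ AddCommGrpCat.{u}) ℤ} (φ : K ⟶ L) (W : FormalCoproduct.{u} C)
    (h : ∀ i : W.I, ValQuasi φ (W.obj i)) (p q r s : ℤ) (hpq : p + 1 = q) (hqr : q + 1 = r) (hrs : r + 1 = s)
    (u : ev (K.X r) W) (v : ev (L.X q) W) (hu : evHom (K.d r s) W u = 0)
    (huv : evHom (φ.f r) W u = evHom (L.d q r) W v) :
    ∃ (x : ev (K.X q) W) (z : ev (L.X p) W),
      evHom (K.d q r) W x = u ∧ evHom (φ.f q) W x = v + evHom (L.d p q) W z := by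
  have h1 : ∀ i : W.I, ∃ (x : (K.X q).obj (op (W.obj i))) (z : (L.X p).obj (op (W.obj i))),
      (K.d q r).app (op (W.obj i)) x = comp _ W i u ∧
        (φ.f q).app (op (W.obj i)) x = comp _ W i v + (L.d p q).app (op (W.obj i)) z := by
    intro i
    refine h i p q r s hpq hqr hrs _ _ ?_ ?_
    · rw [← comp_evHom, hu, map_zero]
    · rw [← comp_evHom, ← comp_evHom, huv]
  choose x z hx hz using h1
  obtain ⟨x', hx'⟩ := ev_exists (K.X q) x
  obtain ⟨z', hz'⟩ := ev_exists (L.X p) z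
  refine ⟨x', z', ev_ext _ fun i => ?_, ev_ext _ fun i => ?_⟩
  · rw [comp_evHom, hx', hx]
  · rw [comp_evHom, hx', hz, map_add, comp_evHom, hz']

lemma θ_inv_naturality {P Q : Cᵒᵖ ⥤ AddCommGrpCat.{u}} (f : P ⟶ Q) (n : ℕ) (j : ℤ) (h : (n : ℤ) = j)
    (x : ev P (EE U _⦋n⦌)) :
    ((cf U).map f).f j ((θ U P n j h).inv x) = (θ U Q n j h).inv (evHom f (EE U _⦋n⦌) x) := by
  have h1 : (θ U P n j h).inv ≫ ((cf U).map f).f j = evHom f (EE U _⦋n⦌) ≫ (θ U Q n j h).inv := by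
    rw [Iso.inv_comp_eq, ← Category.assoc, Iso.eq_comp_inv, θ_naturality]
  exact congr($h1 x)

lemma θ_hom_naturality {P Q : Cᵒᵖ ⥤ AddCommGrpCat.{u}} (f : P ⟶ Q) (n : ℕ) (j : ℤ) (h : (n : ℤ) = j)
    (x : ((cf U).obj P).X j) :
    (θ U Q n j h).hom (((cf U).map f).f j x) = evHom f (EE U _⦋n⦌) ((θ U P n j h).hom x) :=
  congr($(θ_naturality U f n j h) x)

lemma θ_inv_hom (P : Cᵒᵖ ⥤ AddCommGrpCat.{u}) (n : ℕ) (j : ℤ) (h : (n : ℤ) = j) (x : ((cf U).obj P).X j) :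
    (θ U P n j h).inv ((θ U P n j h).hom x) = x :=
  congr($((θ U P n j h).hom_inv_id) x)

/-- Elementwise statement for `j ≥ 0`. -/
lemma cone_nonneg {K L : CochainComplex (Cᵒᵖ ⥤ AddCommGrpCat.{u}) ℤ} (φ : K ⟶ L)
    (n : ℕ) (h : ∀ (i : (EE U _⦋n⦌).I), ValQuasi φ ((EE U _⦋n⦌).obj i)) (j : ℤ) (hj : (n : ℤ) = j)
    (p q r s : ℤ) (hpq : p + 1 = q) (hqr : q + 1 = r) (hrs : r + 1 = s)
    (u : ((cf U).obj (K.X r)).X j) (v : ((cf U).obj (L.X q)).X j)
    (hu : ((cf U).map (K.d r s)).f j u = 0)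
    (huv : ((cf U).map (φ.f r)).f j u = ((cf U).map (L.d q r)).f j v) :
    ∃ (x : ((cf U).obj (K.X q)).X j) (z : ((cf U).obj (L.X p)).X j),
      ((cf U).map (K.d q r)).f j x = u ∧
      ((cf U).map (φ.f q)).f j x = v + ((cf U).map (L.d p q)).f j z := by
  obtain ⟨x, z, hx, hz⟩ := ev_cone φ (EE U _⦋n⦌) h p q r s hpq hqr hrs
    ((θ U (K.X r) n j hj).hom u) ((θ U (L.X q) n j hj).hom v)
    (by rw [← θ_hom_naturality, hu, map_zero])
    (by rw [← θ_hom_naturality, ← θ_hom_naturality, huv])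
  refine ⟨(θ U (K.X q) n j hj).inv x, (θ U (L.X p) n j hj).inv z, ?_, ?_⟩
  · rw [θ_inv_naturality, hx, θ_inv_hom]
  · rw [θ_inv_naturality, θ_inv_naturality, hz, map_add, θ_inv_hom]

lemma eq_of_isZero {A : AddCommGrpCat.{u}} (hA : IsZero A) (x y : A) : x = y := by
  have := AddCommGrpCat.subsingleton_of_isZero hA
  exact Subsingleton.elim x y

theorem quasiIso_row {K L : CochainComplex (Cᵒᵖ ⥤ AddCommGrpCat.{u}) ℤ} (φ : K ⟶ L)
    (h : ∀ (n : ℕ) (i : (EE U _⦋n⦌).I), ValQuasi φ ((EE U _⦋n⦌).obj i)) (j : ℤ) :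
    QuasiIso ((flipMap (cechMap (U := U) φ)).f j) := by
  apply quasiIso_of_isConeElt
  intro p q r s hpq hqr hrs u v hu huv
  by_cases hj : 0 ≤ j
  · obtain ⟨n, hn⟩ := Int.eq_ofNat_of_zero_le hj
    exact cone_nonneg φ n (h n) j hn.symm p q r s hpq hqr hrs u v hu huv
  · refine ⟨0, 0, ?_, ?_⟩
    · exact eq_of_isZero (isZero_neg U (K.X r) j (by lia)) _ _
    · exact eq_of_isZero (isZero_neg U (L.X q) j (by lia)) _ _

/-- A morphism of bounded below complexes of presheaves which is a quasi-isomorphism on all the finite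
products of the family `U` induces a quasi-isomorphism on the total complexes of the Cech double complexes. -/
theorem quasiIso_tot {K L : CochainComplex (Cᵒᵖ ⥤ AddCommGrpCat.{u}) ℤ} (φ : K ⟶ L) (a : ℤ)
    (hK : ∀ i, i < a → IsZero (K.X i)) (hL : ∀ i, i < a → IsZero (L.X i))
    (h : ∀ (n : ℕ) (i : (EE U _⦋n⦌).I), ValQuasi φ ((EE U _⦋n⦌).obj i)) :
    QuasiIso (HomologicalComplex₂.total.map (cechMap (U := U) φ) (ComplexShape.up ℤ)) :=
  quasiIso_total_map_of_flip _ (bdd_cech₂ K a hK) (bdd_cech₂ L a hL) (quasiIso_row φ h)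

end Groth.Agent.Htor.H253.CechRows
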