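import Groth.Agent.PerfC.AcyclicBdd
import Groth.Agent.CohtopA.DimShift

/-!
# Quasi-isomorphisms between bounded below complexes with `Ext(G, -)`-acyclic terms

`exists_of_quasiIso`: let `φ : K ⟶ L` be a quasi-isomorphism between bounded below complexes such that
`Ext^{q+1}(G, K^i) = 0 = Ext^{q+1}(G, L^i)`.  Then `Hom(G, K) ⟶ Hom(G, L)` is a quasi-isomorphism; this is
stated in terms of elements (exactness of the mapping cone).
-/

set_option autoImplicit false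

universe w v u

open CategoryTheory CategoryTheory.Limits CategoryTheory.Abelian CochainComplex CochainComplex.HomComplex

namespace Groth.Agent.Htor.H253.HomCone

open Groth.Agent.PerfC.AcyclicBdd Groth.Agent.CohtopA.DimShift

variable {A : Type u} [Category.{v} A] [Abelian A] [HasExt.{w} A] (G : A)

/-- `X` is acyclic for `Hom(G, -)`. -/
def ExtAcyc (X : A) : Prop := ∀ (q : ℕ) (x : Ext G X (q + 1)), x = 0

variable {G}

lemma extAcyc_of_isZero {X : A} (h : IsZero X) : ExtAcyc G X := by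
  intro q x
  have h1 : x = x.comp (Ext.mk₀ (𝟙 X)) (add_zero _) := (x.comp_mk₀_id).symm
  rw [h1, (IsZero.iff_id_eq_zero X).1 h, Ext.mk₀_zero, Ext.comp_zero]

lemma extAcyc_of_injective {X : A} [Injective X] : ExtAcyc G X :=
  fun _ x => Ext.eq_zero_of_injective x

lemma extAcyc_of_sum {X Y Z : A} (hY : ExtAcyc G Y) (hZ : ExtAcyc G Z) (p₁ : X ⟶ Y) (i₁ : Y ⟶ X)
    (p₂ : X ⟶ Z) (i₂ : Z ⟶ X) (h : p₁ ≫ i₁ + p₂ ≫ i₂ = 𝟙 X) : ExtAcyc G X := by
  intro q x
  have h1 : x = x.comp (Ext.mk₀ (𝟙 X)) (add_zero _) := (x.comp_mk₀_id).symm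
  have h2 := hY q (x.comp (Ext.mk₀ p₁) (add_zero _))
  have h3 := hZ q (x.comp (Ext.mk₀ p₂) (add_zero _))
  rw [h1, ← h, Ext.mk₀_add, Ext.comp_add, ← Ext.mk₀_comp_mk₀, ← Ext.mk₀_comp_mk₀,
    ← Ext.comp_assoc_of_third_deg_zero, ← Ext.comp_assoc_of_third_deg_zero, h2, h3, Ext.zero_comp,
    Ext.zero_comp, add_zero]

lemma extAcyc_cycles (M : CochainComplex A ℤ) (a : ℤ) (ha : ∀ i, i < a → IsZero (M.X i)) (hM : M.Acyclic)
    (h : ∀ i, ExtAcyc G (M.X i)) (i : ℤ) : ExtAcyc G (M.cycles i) := by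
  have key : ∀ (m : ℕ) (p : ℤ), p ≤ a - 1 + m → ExtAcyc G (M.cycles p) := by
    intro m
    induction m with
    | zero =>
      intro p hp
      exact extAcyc_of_isZero (IsZero.of_mono (M.iCycles p) (ha p (by simp at hp; lia)))
    | succ m ih =>
      intro p hp q x
      refine ext_eq_zero_of_left (cycSC_shortExact M (p - 1) p (by lia) (hM p)) G (q + 1) (fun y => ?_)
        (fun y => h _ q y) x
      exact ih (p - 1) (by push_cast at hp; lia) (q + 1) y
  exact key (i - (a - 1)).toNat i (by lia)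

lemma exists_lift_d (M : CochainComplex A ℤ) (a : ℤ) (ha : ∀ i, i < a → IsZero (M.X i)) (hM : M.Acyclic)
    (h : ∀ i, ExtAcyc G (M.X i)) (p q r : ℤ) (hpq : p + 1 = q) (hqr : q + 1 = r) (f : G ⟶ M.X q)
    (hf : f ≫ M.d q r = 0) : ∃ g : G ⟶ M.X p, g ≫ M.d p q = f := by
  obtain ⟨g, hg⟩ := exists_lift_of_ext_one (cycSC_shortExact M p q hpq (hM q)) G
    (fun x => extAcyc_cycles M a ha hM h p 0 x) (M.liftCycles f r (by simp; lia) hf)
  refine ⟨g, ?_⟩
  have := hg =≫ M.iCycles q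
  simpa using this

theorem exists_of_quasiIso {K L : CochainComplex A ℤ} (φ : K ⟶ L) [QuasiIso φ] (a : ℤ)
    (hKa : ∀ i, i < a → IsZero (K.X i)) (hLa : ∀ i, i < a → IsZero (L.X i))
    (hK : ∀ i, ExtAcyc G (K.X i)) (hL : ∀ i, ExtAcyc G (L.X i)) (p q r s : ℤ) (hpq : p + 1 = q) (hqr : q + 1 = r)
    (hrs : r + 1 = s) (u : G ⟶ K.X r) (v : G ⟶ L.X q) (hu : u ≫ K.d r s = 0) (huv : u ≫ φ.f r = v ≫ L.d q r) :
    ∃ (x : G ⟶ K.X q) (z : G ⟶ L.X p), x ≫ K.d q r = u ∧ x ≫ φ.f q = v + z ≫ L.d p q := by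
  have hφ : (mappingCone φ).Acyclic := (quasiIso_iff_acyclic_mappingCone φ).1 inferInstance
  have hid : ∀ i : ℤ, (mappingCone.fst φ).1.v i (i + 1) rfl ≫ (mappingCone.inl φ).v (i + 1) i (by lia) +
      (mappingCone.snd φ).v i i (add_zero i) ≫ (mappingCone.inr φ).f i = 𝟙 ((mappingCone φ).X i) :=
    fun i => mappingCone.id_X φ i (i + 1) rfl
  have hz : ∀ i, i < a - 1 → IsZero ((mappingCone φ).X i) := by
    intro i hi
    rw [IsZero.iff_id_eq_zero, ← hid i, (hKa (i + 1) (by lia)).eq_of_tgt ((mappingCone.fst φ).1.v i (i + 1) rfl) 0,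
      (hLa i (by lia)).eq_of_tgt ((mappingCone.snd φ).v i i (add_zero i)) 0]
    simp
  have hE : ∀ i, ExtAcyc G ((mappingCone φ).X i) := fun i =>
    extAcyc_of_sum (hK (i + 1)) (hL i) _ _ _ _ (hid i)
  obtain ⟨g, hg⟩ := exists_lift_d (mappingCone φ) (a - 1) hz hφ hE p q r hpq hqr
    (-(u ≫ (mappingCone.inl φ).v r q (by lia)) + v ≫ (mappingCone.inr φ).f q) (by
      apply mappingCone.ext_to φ r s hrs
      · simp [mappingCone.d_fst_v φ q r s hqr hrs, hu]
      · simp [mappingCone.d_snd_v φ q r hqr, huv])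
  refine ⟨g ≫ (mappingCone.fst φ).1.v p q hpq, -(g ≫ (mappingCone.snd φ).v p p (add_zero p)), ?_, ?_⟩
  · have := hg =≫ (mappingCone.fst φ).1.v q r hqr
    simpa [mappingCone.d_fst_v φ p q r hpq hqr] using this
  · have := hg =≫ (mappingCone.snd φ).v q q (add_zero q)
    simp [mappingCone.d_snd_v φ p q hpq] at this
    rw [← this]
    simp

end Groth.Agent.Htor.H253.HomCone
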