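import Mathlib.Algebra.Homology.TotalComplex
import Mathlib.CategoryTheory.Abelian.Basic
import Mathlib.Data.Int.Interval

/-!
# Projections from the total complex of a bicomplex

For a bicomplex `D` indexed by `ℤ × ℤ`, `prj D i j n : (D.total (up ℤ)).X n ⟶ (D.X i).X j` is the projection
on the summand `(i, j)` (meaningful if `i + j = n`).  If on each antidiagonal only finitely many terms are
nonzero (`Bdd D`), morphisms `A ⟶ (D.total (up ℤ)).X n` are the same as families of morphisms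
`A ⟶ (D.X i).X j`, `i + j = n` (`ext_prj`, `exists_prj`).
-/

set_option autoImplicit false

open CategoryTheory CategoryTheory.Limits HomologicalComplex₂ ComplexShape

namespace Groth.Agent.Htor.H253.TotalPrj

variable {C : Type*} [Category* C] [Preadditive C]

section

variable (D : HomologicalComplex₂ C (up ℤ) (up ℤ)) [D.HasTotal (up ℤ)]

/-- The projection from the total complex to a summand. -/
noncomputable def prj (i j n : ℤ) : (D.total (up ℤ)).X n ⟶ (D.X i).X j :=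
  D.totalDesc (fun i' j' _ => if h : i' = i ∧ j' = j then (D.XXIsoOfEq _ _ _ h.1 h.2).hom else 0)

lemma ι_prj (i j n : ℤ) (h : i + j = n) :
    D.ιTotal (up ℤ) i j n h ≫ prj D i j n = 𝟙 _ := by
  rw [prj, ι_totalDesc, dif_pos ⟨rfl, rfl⟩]
  rfl

lemma ι_prj_ne (i j i' j' n : ℤ) (h : i + j = n) (hne : i ≠ i') :
    D.ιTotal (up ℤ) i j n h ≫ prj D i' j' n = 0 := by
  rw [prj, ι_totalDesc, dif_neg (fun h => hne h.1)]

lemma ι_d (i j n n' : ℤ) (h : i + j = n) (h' : n + 1 = n') :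
    D.ιTotal (up ℤ) i j n h ≫ (D.total (up ℤ)).d n n' =
      (D.d i (i + 1)).f j ≫ D.ιTotal (up ℤ) (i + 1) j n' (by dsimp; lia) +
      i.negOnePow • ((D.X i).d j (j + 1) ≫ D.ιTotal (up ℤ) i (j + 1) n' (by dsimp; lia)) := by
  rw [total_d, Preadditive.comp_add, ι_D₁, ι_D₂, D.d₁_eq (up ℤ) (i₁' := i + 1) rfl j n' (by dsimp; lia),
    D.d₂_eq (up ℤ) i (i₂' := j + 1) rfl n' (by dsimp; lia)]
  dsimp
  rw [one_smul]

lemma d_prj (i' i j' j n n' : ℤ) (hi : i' + 1 = i) (hj : j' + 1 = j) (h' : n + 1 = n') (h : i + j = n') :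
    (D.total (up ℤ)).d n n' ≫ prj D i j n' =
      prj D i' j n ≫ (D.d i' i).f j + i.negOnePow • (prj D i j' n ≫ (D.X i).d j' j) := by
  subst hi hj
  apply total.hom_ext
  intro p q hpq
  rw [reassoc_of% (ι_d D p q n n' hpq h'), Preadditive.add_comp, Category.assoc, Linear.units_smul_comp,
    Category.assoc, Preadditive.comp_add, Linear.comp_units_smul]
  have hpq' : p + q = n := hpq
  by_cases h1 : p = i'
  · subst h1
    obtain rfl : q = j' + 1 := by lia
    rw [ι_prj, ι_prj_ne D p _ (p + 1) _ _ _ (by lia), reassoc_of% (ι_prj D p (j' + 1) n hpq),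
      reassoc_of% (ι_prj_ne D p (j' + 1) (p + 1) j' n hpq (by lia))]
    simp
  · by_cases h2 : p = i' + 1
    · subst h2
      obtain rfl : q = j' := by lia
      rw [ι_prj_ne D _ _ (i' + 1) _ _ _ (by lia), ι_prj, reassoc_of% (ι_prj_ne D (i' + 1) q i' (q + 1) n hpq (by lia)),
        reassoc_of% (ι_prj D (i' + 1) q n hpq)]
      simp
    · rw [ι_prj_ne D _ _ (i' + 1) _ _ _ (by lia), ι_prj_ne D p _ (i' + 1) _ _ _ (by lia),
        reassoc_of% (ι_prj_ne D p q i' (j' + 1) n hpq h1), reassoc_of% (ι_prj_ne D p q (i' + 1) j' n hpq h2)]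
      simp

end

/-- Only finitely many nonzero terms on each antidiagonal. -/
def Bdd (D : HomologicalComplex₂ C (up ℤ) (up ℤ)) : Prop :=
  ∀ n : ℤ, ∃ lo hi : ℤ, ∀ i j : ℤ, i + j = n → (i < lo ∨ hi < i) → IsZero ((D.X i).X j)

section

variable {D E : HomologicalComplex₂ C (up ℤ) (up ℤ)} [D.HasTotal (up ℤ)] [E.HasTotal (up ℤ)]

lemma id_eq_sum (n lo hi : ℤ) (hD : ∀ i j : ℤ, i + j = n → (i < lo ∨ hi < i) → IsZero ((D.X i).X j)) :
    𝟙 ((D.total (up ℤ)).X n) = ∑ i ∈ Finset.Icc lo hi,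
      prj D i (n - i) n ≫ D.ιTotal (up ℤ) i (n - i) n (by dsimp; lia) := by
  apply total.hom_ext
  intro p q hpq
  have hpq' : p + q = n := hpq
  obtain rfl : q = n - p := by lia
  rw [Category.comp_id, Preadditive.comp_sum]
  by_cases hp : p ∈ Finset.Icc lo hi
  · rw [Finset.sum_eq_single p, reassoc_of% (ι_prj D p (n - p) n hpq)]
    · intro i _ hi
      rw [reassoc_of% (ι_prj_ne D p (n - p) i (n - i) n hpq hi.symm), zero_comp]
    · intro h
      exact (h hp).elim
  · refine (hD p (n - p) hpq' ?_).eq_of_src _ _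
    rw [Finset.mem_Icc] at hp
    lia

lemma ext_prj (hD : Bdd D) {A : C} {n : ℤ} {f g : A ⟶ (D.total (up ℤ)).X n}
    (h : ∀ i j : ℤ, i + j = n → f ≫ prj D i j n = g ≫ prj D i j n) : f = g := by
  obtain ⟨lo, hi, hD⟩ := hD n
  rw [← Category.comp_id f, ← Category.comp_id g, id_eq_sum n lo hi hD, Preadditive.comp_sum,
    Preadditive.comp_sum]
  refine Finset.sum_congr rfl fun i _ => ?_
  rw [← Category.assoc, ← Category.assoc, h i (n - i) (by lia)]

lemma exists_prj (hD : Bdd D) {A : C} (n : ℤ) (x : ∀ i j : ℤ, A ⟶ (D.X i).X j) :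
    ∃ f : A ⟶ (D.total (up ℤ)).X n, ∀ i j : ℤ, i + j = n → f ≫ prj D i j n = x i j := by
  obtain ⟨lo, hi, hD⟩ := hD n
  refine ⟨∑ i ∈ Finset.Icc lo hi, x i (n - i) ≫ D.ιTotal (up ℤ) i (n - i) n (by dsimp; lia), ?_⟩
  intro i j hij
  obtain rfl : j = n - i := by lia
  rw [Preadditive.sum_comp]
  by_cases hp : i ∈ Finset.Icc lo hi
  · rw [Finset.sum_eq_single i, Category.assoc, ι_prj, Category.comp_id]
    · intro i' _ hi'
      rw [Category.assoc, ι_prj_ne D i' _ i _ n _ hi', comp_zero]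
    · intro h
      exact (h hp).elim
  · refine (hD i (n - i) hij ?_).eq_of_tgt _ _
    rw [Finset.mem_Icc] at hp
    lia

lemma map_prj (φ : D ⟶ E) (i j n : ℤ) :
    (total.map φ (up ℤ)).f n ≫ prj E i j n = prj D i j n ≫ (φ.f i).f j := by
  apply total.hom_ext
  intro p q hpq
  rw [ιTotal_map_assoc]
  by_cases h : p = i ∧ q = j
  · obtain ⟨rfl, rfl⟩ := h
    rw [ι_prj, Category.comp_id, reassoc_of% (ι_prj D p q n hpq)]
  · have h1 : D.ιTotal (up ℤ) p q n hpq ≫ prj D i j n = 0 := by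
      rw [prj, ι_totalDesc, dif_neg h]
    have h2 : E.ιTotal (up ℤ) p q n hpq ≫ prj E i j n = 0 := by
      rw [prj, ι_totalDesc, dif_neg h]
    rw [h2, reassoc_of% h1, zero_comp, comp_zero]

end

end Groth.Agent.Htor.H253.TotalPrj
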